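import Cfsg.Agent.Lib.Balance.CentralizerCore
import Cfsg.Agent.Lib.SectRank.Constrained
import Cfsg.Agent.Lib.Involutions.Isolated
import Cfsg.Prelude.Def_OddOrderLocal
import Cfsg.Prelude.Def_CaseTheorems

/-! # Groups of characteristic two type in the early sense have trivial local odd cores -/

set_option autoImplicit false

open Cfsg

namespace CfsgLib.CoreFree

variable {G : Type*} [Group G] [Finite G]

open CfsgLib.Balance in
/-- A subgroup of odd order inverted elementwise, stable under a four-group, is generated by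
centralized pieces: the square of each element is a product of three of them. -/
theorem sq_mem_pieces {V : Subgroup G} (hV : ∀ x ∈ V, ∀ y ∈ V, x * y = y * x) {b c : G}
    (hb : b * b = 1) (hc : c * c = 1) (hbc : b * c = c * b) (hbV : ∀ x ∈ V, b * x * b⁻¹ ∈ V)
    (hcV : ∀ x ∈ V, c * x * c⁻¹ ∈ V) {x : G} (hx : x ∈ V) :
    ∃ p₁ p₂ p₃ p₄, p₁ ∈ V ∧ p₂ ∈ V ∧ p₃ ∈ V ∧ p₄ ∈ V ∧ x * x = p₁ * p₂ * p₃ * p₄⁻¹ ∧
      p₁ * b = b * p₁ ∧ p₂ * c = c * p₂ ∧ p₃ * (b * c) = b * c * p₃ ∧ p₄ * b = b * p₄ := by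
  have hbi : b⁻¹ = b := inv_eq_of_mul_eq_one_right hb
  have hci : c⁻¹ = c := inv_eq_of_mul_eq_one_right hc
  have hbc2 : b * c * (b * c) = 1 := by
    rw [show b * c * (b * c) = b * (c * b) * c by group, ← hbc, show b * (b * c) * c = (b * b) * (c * c) by group, hb, hc, one_mul]
  have key : ∀ d : G, d * d = 1 → (∀ y ∈ V, d * y * d⁻¹ ∈ V) → ∀ y ∈ V, (y * (d * y * d⁻¹)) * d = d * (y * (d * y * d⁻¹)) := by
    intro d hd hdV y hy
    have hdi : d⁻¹ = d := inv_eq_of_mul_eq_one_right hd
    conv_lhs => rw [hV y hy _ (hdV y hy)]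
    calc d * y * d⁻¹ * y * d = d * y * d * y * d := by rw [hdi]
      _ = d * (y * (d * y * d⁻¹)) := by rw [hdi]; group
  have hbcV : ∀ y ∈ V, b * c * y * (b * c)⁻¹ ∈ V := fun y hy => by
    rw [show b * c * y * (b * c)⁻¹ = b * (c * y * c⁻¹) * b⁻¹ by group]
    exact hbV _ (hcV y hy)
  set xb := b * x * b⁻¹
  set xc := c * x * c⁻¹
  set xd := b * c * x * (b * c)⁻¹
  have m1 : xb ∈ V := hbV x hx
  have m2 : xc ∈ V := hcV x hx
  have m3 : xd ∈ V := hbcV x hx
  have hd' : b * xc * b⁻¹ = xd := by simp only [xc, xd]; group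
  refine ⟨x * xb, x * xc, x * xd, (x * xb) * (xc * xd), V.mul_mem hx m1, V.mul_mem hx m2, V.mul_mem hx m3,
    V.mul_mem (V.mul_mem hx m1) (V.mul_mem m2 m3), ?_, key b hb hbV x hx, key c hc hcV x hx, key _ hbc2 hbcV x hx, ?_⟩
  · -- a computation in the abelian group `V`
    have : IsMulCommutative V := ⟨⟨fun u v => Subtype.ext (hV u u.2 v v.2)⟩⟩
    have e : ∀ u v w y : V, u * u = u * v * (u * w) * (u * y) * (u * v * (w * y))⁻¹ := by
      intro u v w y
      rw [eq_mul_inv_iff_mul_eq]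
      ac_rfl
    exact congrArg Subtype.val (e ⟨x, hx⟩ ⟨xb, m1⟩ ⟨xc, m2⟩ ⟨xd, m3⟩)
  · have c1 : Commute (x * xb) b := key b hb hbV x hx
    have c2 : Commute (xc * xd) b := by rw [← hd']; exact key b hb hbV xc m2
    exact (c1.mul_left c2).eq

theorem exists_sq_eq {x : G} (hodd : Odd (orderOf x)) (V : Subgroup G) (hx : x ∈ V) : ∃ y ∈ V, y * y = x := by
  obtain ⟨k, hk⟩ := hodd
  refine ⟨x ^ (k + 1), V.pow_mem hx _, ?_⟩
  rw [← pow_add, show k + 1 + (k + 1) = (2 * k + 1) + 1 by ring, pow_succ, ← hk, pow_orderOf_eq_one, one_mul]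

namespace CharTwoEarly

open CfsgLib.Balance

/-- `O(C(a))`. -/
local notation "θ" => Cfsg.centralizerPPrimeCore 2

/-- The data: a normal elementary abelian subgroup of order at least eight in a Sylow 2-subgroup normalizing no
nontrivial subgroup of odd order, and constrained involution centralizers. -/
structure Data (S : Sylow 2 G) (E : Subgroup G) : Prop where
  sub : E ≤ (S : Subgroup G)
  norm : (S : Subgroup G) ≤ Subgroup.normalizer (E : Set G)
  comm : ∀ a ∈ E, ∀ b ∈ E, a * b = b * a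
  sq : ∀ a ∈ E, a * a = 1
  big : 8 ≤ Nat.card E
  inv : ∀ X : Subgroup G, Odd (Nat.card X) → (S : Subgroup G) ≤ Subgroup.normalizer (X : Set G) → X = ⊥
  con : ∀ b : G, orderOf b = 2 → IsPConstrained 2 ↥(Subgroup.centralizer ({b} : Set G))

variable {S : Sylow 2 G} {E : Subgroup G}

theorem odd_theta (a : G) : Odd (Nat.card (θ a)) := by
  haveI : Fact (Nat.Prime 2) := ⟨Nat.prime_two⟩
  rw [Nat.odd_iff]
  have := not_dvd_card_centralizerPPrimeCore (p := 2) a
  omega

theorem orderOf_eq_two_of_mem (h : Data S E) {a : G} (ha : a ∈ E) (h1 : a ≠ 1) : orderOf a = 2 :=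
  orderOf_eq_prime (by rw [pow_two]; exact h.sq a ha) h1

theorem balance (h : Data S E) {a b : G} (ha : a * a = 1) (hb : orderOf b = 2) (hab : a * b = b * a) {x : G}
    (hx : x ∈ θ a) (hxb : x * b = b * x) : x ∈ θ b := by
  haveI : Fact (Nat.Prime 2) := ⟨Nat.prime_two⟩
  refine centralizerPPrimeCore_inf_le (p := 2) (by rw [pow_two]; exact ha) hab
    (CfsgLib.SectRank.isPConstrained_iff.1 (h.con b hb)) ⟨hx, ?_⟩
  exact Subgroup.mem_centralizer_singleton_iff.2 hxb

theorem conj_mem_theta {a x g : G} (hga : g * a = a * g) (hx : x ∈ θ a) : g * x * g⁻¹ ∈ θ a :=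
  (Subgroup.mem_normalizer_iff.1 (centralizer_le_normalizer_centralizerPPrimeCore 2 a
    (Subgroup.mem_centralizer_singleton_iff.2 hga)) x).1 hx

theorem mul_eq_of_mem_theta {a x : G} (hx : x ∈ θ a) : x * a = a * x :=
  Subgroup.mem_centralizer_singleton_iff.1 (centralizerPPrimeCore_le_centralizer 2 a hx)

theorem theta_central_eq_bot (h : Data S E) {z : G} (hzc : ∀ s ∈ (S : Subgroup G), s * z = z * s) : θ z = ⊥ :=
  h.inv _ (odd_theta z) fun s hs => centralizer_le_normalizer_centralizerPPrimeCore 2 z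
    (Subgroup.mem_centralizer_singleton_iff.2 (hzc s hs))

/-- The odd core of the centralizer of an involution of `S` is abelian. -/
theorem theta_comm (h : Data S E) {z : G} (hz : orderOf z = 2) (hzc : ∀ s ∈ (S : Subgroup G), s * z = z * s)
    {a : G} (ha : a * a = 1) (haS : a ∈ (S : Subgroup G)) :
    (∀ x ∈ θ a, ∀ y ∈ θ a, x * y = y * x) ∧ ∀ x ∈ θ a, z * x * z⁻¹ = x⁻¹ := by
  have hz2 : z * z = 1 := by have := pow_orderOf_eq_one z; rwa [hz, pow_two] at this
  have hza : z * a = a * z := (hzc a haS).symm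
  let f : θ a → θ a := fun x => ⟨z * x * z⁻¹, conj_mem_theta hza x.2⟩
  let φ : θ a →* θ a := MonoidHom.mk' f fun x y => Subtype.ext (by simp [f, mul_assoc])
  have hfp : MonoidHom.FixedPointFree φ := by
    intro x hx
    have e : z * (x : G) * z⁻¹ = x := congrArg Subtype.val hx
    have e' : (x : G) * z = z * x := (mul_inv_eq_iff_eq_mul.1 e).symm
    have h1 := balance h ha hz (hzc a haS) x.2 e'
    rw [theta_central_eq_bot h hzc, Subgroup.mem_bot] at h1
    exact Subtype.ext h1
  have hinv : Function.Involutive φ := fun x => Subtype.ext (by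
    show z * (z * (x : G) * z⁻¹) * z⁻¹ = x
    rw [show z * (z * (x : G) * z⁻¹) * z⁻¹ = (z * z) * x * (z * z)⁻¹ by group, hz2]; simp)
  refine ⟨fun x hx y hy => congrArg Subtype.val (hfp.commute_all_of_involutive hinv ⟨x, hx⟩ ⟨y, hy⟩).eq, fun x hx => ?_⟩
  have := congrFun (hfp.coe_eq_inv_of_involutive hinv) ⟨x, hx⟩
  exact congrArg Subtype.val this

theorem exists_four (h : Data S E) (c : G) : ∃ b ∈ E, b ≠ 1 ∧ b ≠ c := by
  classical
  by_contra hcon
  push Not at hcon
  have : Nat.card E ≤ 2 := by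
    refine (Nat.card_le_card_of_injective (fun x : E => decide ((x : G) = 1)) ?_).trans (by simp)
    intro x y hxy
    simp only [decide_eq_decide] at hxy
    by_cases hx : (x : G) = 1
    · exact Subtype.ext (hx.trans (hxy.1 hx).symm)
    · exact Subtype.ext ((hcon x x.2 hx).trans (hcon y y.2 (fun e => hx (hxy.2 e))).symm)
  have := h.big
  omega

theorem exists_outside (h : Data S E) (c d : G) (hc : c ∈ E) (hd : d ∈ E) :
    ∃ b ∈ E, b ≠ 1 ∧ b ≠ c ∧ b ≠ d ∧ b ≠ c * d := by
  classical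
  by_contra hcon
  push Not at hcon
  let S4 : Finset G := {1, c, d, c * d}
  have hsub : (E : Set G) ⊆ ↑S4 := by
    intro x hx
    simp only [S4, Finset.coe_insert, Finset.coe_singleton, Set.mem_insert_iff, Set.mem_singleton_iff]
    by_cases h1 : x = 1
    · exact Or.inl h1
    by_cases h2 : x = c
    · exact Or.inr (Or.inl h2)
    by_cases h3 : x = d
    · exact Or.inr (Or.inr (Or.inl h3))
    exact Or.inr (Or.inr (Or.inr (hcon x hx h1 h2 h3)))
  have h1 := Nat.card_mono S4.finite_toSet hsub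
  have h2 : Nat.card (↑S4 : Set G) ≤ 4 := by
    rw [Nat.card_coe_set_eq, Set.ncard_coe_finset]
    exact Finset.card_le_four
  have h3 := h.big
  change Nat.card E ≤ _ at h1
  omega

theorem sq_pieces_mem (h : Data S E) {z : G} (hz : orderOf z = 2) (hzc : ∀ s ∈ (S : Subgroup G), s * z = z * s)
    {t : G} (ht : t * t = 1) (htS : t ∈ (S : Subgroup G)) {b c : G} (hb : b ∈ E) (hc : c ∈ E)
    (hbt : b * t = t * b) (hct : c * t = t * c) (P : Subgroup G)
    (hP : ∀ y ∈ θ t, ∀ e, (e = b ∨ e = c ∨ e = b * c) → y * e = e * y → y ∈ P) : θ t ≤ P := by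
  intro x hx
  have hVc := (theta_comm h hz hzc ht htS).1
  have hodd : Odd (orderOf x) := (odd_theta t).of_dvd_nat (Subgroup.orderOf_dvd_natCard _ hx)
  obtain ⟨y, hy, rfl⟩ := exists_sq_eq hodd _ hx
  obtain ⟨p₁, p₂, p₃, p₄, m1, m2, m3, m4, e, e1, e2, e3, e4⟩ := sq_mem_pieces hVc (h.sq b hb) (h.sq c hc)
    (h.comm b hb c hc) (fun _ hu => conj_mem_theta hbt hu) (fun _ hu => conj_mem_theta hct hu) hy
  rw [e]
  exact P.mul_mem (P.mul_mem (P.mul_mem (hP _ m1 b (Or.inl rfl) e1) (hP _ m2 c (Or.inr (Or.inl rfl)) e2))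
    (hP _ m3 _ (Or.inr (Or.inr rfl)) e3)) (P.inv_mem (hP _ m4 b (Or.inl rfl) e4))

theorem theta_commute (h : Data S E) {z : G} (hz : orderOf z = 2) (hzc : ∀ s ∈ (S : Subgroup G), s * z = z * s)
    {c d : G} (hc : c ∈ E) (hc1 : c ≠ 1) (hd : d ∈ E) (hd1 : d ≠ 1) :
    ∀ x ∈ θ c, ∀ y ∈ θ d, x * y = y * x := by
  by_cases hcd : c = d
  · subst hcd; exact (theta_comm h hz hzc (h.sq c hc) (h.sub hc)).1
  obtain ⟨e, he, he1, hec, hed, hecd⟩ := exists_outside h c d hc hd
  have C2 := fun {a : G} (ha : a ∈ E) => h.sq a ha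
  -- pieces centralized by a four-group inside `⟨c, d, e⟩`
  intro x hx y hy
  suffices hsuff : θ c ≤ Subgroup.centralizer (θ d : Set G) from
    (Subgroup.mem_centralizer_iff.1 (hsuff hx) y hy).symm
  refine sq_pieces_mem h hz hzc (C2 hc) (h.sub hc) he hd (h.comm e he c hc) (h.comm d hd c hc) _ ?_
  intro p hp b hb hpb
  rw [Subgroup.mem_centralizer_iff]
  intro q hq
  suffices hs2 : θ d ≤ Subgroup.centralizer ({p} : Set G) from
    Subgroup.mem_centralizer_singleton_iff.1 (hs2 hq)
  refine sq_pieces_mem h hz hzc (C2 hd) (h.sub hd) he hc (h.comm e he d hd) (h.comm c hc d hd) _ ?_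
  intro r hr b' hb' hrb'
  rw [Subgroup.mem_centralizer_singleton_iff]
  -- find an involution centralized by both
  have hbE : b ∈ E := by rcases hb with rfl | rfl | rfl <;> first | assumption | exact E.mul_mem he hd
  have hb'E : b' ∈ E := by rcases hb' with rfl | rfl | rfl <;> first | assumption | exact E.mul_mem he hc
  have hpc := mul_eq_of_mem_theta hp
  have hrd := mul_eq_of_mem_theta hr
  obtain ⟨u, hu, hu1, hpu, hru⟩ : ∃ u ∈ E, u ≠ 1 ∧ p * u = u * p ∧ r * u = u * r := by
    rcases hb' with hb' | hb' | hb'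
    · -- `r` centralizes `d` and `e`
      rw [hb'] at hrb'
      rcases hb with hb | hb | hb
      · rw [hb] at hpb; exact ⟨e, he, he1, hpb, hrb'⟩
      · rw [hb] at hpb; exact ⟨d, hd, hd1, hpb, hrd⟩
      · rw [hb] at hpb; exact ⟨e * d, E.mul_mem he hd, fun h0 => hed (eq_of_mul_eq_one_inv h0 (C2 hd)), hpb,
          (Commute.mul_right hrb' hrd).eq⟩
    · rw [hb'] at hrb'; exact ⟨c, hc, hc1, hpc, hrb'⟩
    · rw [hb'] at hrb'
      -- `r` centralizes `d` and `e c`
      rcases hb with hb | hb | hb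
      · rw [hb] at hpb
        exact ⟨e * c, E.mul_mem he hc, fun h0 => hec (eq_of_mul_eq_one_inv h0 (C2 hc)),
          (Commute.mul_right hpb hpc).eq, hrb'⟩
      · rw [hb] at hpb; exact ⟨d, hd, hd1, hpb, hrd⟩
      · rw [hb] at hpb
        refine ⟨e * d * c, E.mul_mem (E.mul_mem he hd) hc, fun h0 => hecd ?_, (Commute.mul_right hpb hpc).eq, ?_⟩
        · have h1 := eq_of_mul_eq_one_inv h0 (C2 hc)
          calc e = e * d * d := by rw [mul_assoc, C2 hd, mul_one]
            _ = c * d := by rw [h1]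
        · rw [show e * d * c = d * (e * c) by rw [h.comm e he d hd, mul_assoc]]
          exact (Commute.mul_right hrd hrb').eq
  have hu2 := orderOf_eq_two_of_mem h hu hu1
  exact (theta_comm h hz hzc (h.sq u hu) (h.sub hu)).1 r (balance h (C2 hd) hu2 (h.comm d hd u hu) hr hru)
    p (balance h (C2 hc) hu2 (h.comm c hc u hu) hp hpu)
where
  eq_of_mul_eq_one_inv {a b : G} (h0 : a * b = 1) (hb : b * b = 1) : a = b := by
    rw [eq_inv_of_mul_eq_one_left h0, inv_eq_of_mul_eq_one_right hb]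

theorem theta_eq_bot_of_mem (h : Data S E) {z : G} (hz : orderOf z = 2) (hzc : ∀ s ∈ (S : Subgroup G), s * z = z * s)
    {c : G} (hc : c ∈ E) (hc1 : c ≠ 1) : θ c = ⊥ := by
  classical
  haveI : Fact (Nat.Prime 2) := ⟨Nat.prime_two⟩
  set U : Set G := {x | ∃ a ∈ E, a ≠ 1 ∧ x ∈ θ a} with hU
  set W := Subgroup.closure U
  haveI : IsMulCommutative W := Subgroup.isMulCommutative_closure (fun x hx y hy => by
    obtain ⟨a, ha, ha1, hxa⟩ := hx
    obtain ⟨b, hb, hb1, hyb⟩ := hy
    exact theta_commute h hz hzc ha ha1 hb hb1 x hxa y hyb)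
  have hodd : ∀ w ∈ W, Odd (orderOf w) := by
    intro w hw
    induction hw using Subgroup.closure_induction with
    | mem x hx => obtain ⟨a, -, -, hxa⟩ := hx; exact (odd_theta a).of_dvd_nat (Subgroup.orderOf_dvd_natCard _ hxa)
    | one => simp
    | mul x y hx hy ihx ihy =>
      have hcomm : Commute x y := congrArg Subtype.val (mul_comm' (⟨x, hx⟩ : W) ⟨y, hy⟩)
      exact (ihx.mul ihy).of_dvd_nat hcomm.orderOf_mul_dvd_mul_orderOf
    | inv x hx ih => rwa [orderOf_inv]
  have hWodd : Odd (Nat.card W) := by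
    rw [← Nat.not_even_iff_odd, even_iff_two_dvd]
    intro h2
    obtain ⟨w, hw⟩ := exists_prime_orderOf_dvd_card' (G := W) 2 h2
    have := hodd _ w.2
    rw [Subgroup.orderOf_coe, hw] at this
    exact absurd this (by decide)
  have hnorm : (S : Subgroup G) ≤ Subgroup.normalizer (W : Set G) := by
    have key : ∀ s ∈ (S : Subgroup G), ∀ x ∈ W, s * x * s⁻¹ ∈ W := by
      intro s hs x hx
      induction hx using Subgroup.closure_induction with
      | mem x hxU =>
        obtain ⟨a, ha, ha1, hxa⟩ := hxU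
        have ha' : s * a * s⁻¹ ∈ E := (Subgroup.mem_normalizer_iff.1 (h.norm hs) a).1 ha
        refine Subgroup.subset_closure ⟨_, ha', fun e => ha1 (conj_eq_one_iff.1 e), ?_⟩
        have hle : (θ a).map (MulAut.conj s).toMonoidHom ≤ θ (s * a * s⁻¹) := by
          refine le_centralizerPPrimeCore ?_ ?_ ?_
          · rintro _ ⟨u, hu, rfl⟩
            rw [Subgroup.mem_centralizer_singleton_iff]
            show s * u * s⁻¹ * (s * a * s⁻¹) = s * a * s⁻¹ * (s * u * s⁻¹)
            rw [conj_mul, conj_mul, mul_eq_of_mem_theta hu]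
          · intro g hg
            rw [Subgroup.mem_centralizer_singleton_iff] at hg
            have hg' : s⁻¹ * g * s * a = a * (s⁻¹ * g * s) := by
              calc s⁻¹ * g * s * a = s⁻¹ * (g * (s * a * s⁻¹)) * s := by group
                _ = a * (s⁻¹ * g * s) := by rw [hg]; group
            rw [Subgroup.mem_normalizer_iff]
            intro u
            constructor
            · rintro ⟨v, hv, rfl⟩
              refine ⟨_, conj_mem_theta hg' hv, ?_⟩
              show s * (s⁻¹ * g * s * v * (s⁻¹ * g * s)⁻¹) * s⁻¹ = g * (s * v * s⁻¹) * g⁻¹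
              group
            · rintro ⟨v, hv, hv'⟩
              have hg'' : (s⁻¹ * g * s)⁻¹ * a = a * (s⁻¹ * g * s)⁻¹ := (show Commute (s⁻¹ * g * s) a from hg').inv_left.eq
              refine ⟨_, conj_mem_theta hg'' hv, ?_⟩
              show s * ((s⁻¹ * g * s)⁻¹ * v * (s⁻¹ * g * s)⁻¹⁻¹) * s⁻¹ = u
              calc s * ((s⁻¹ * g * s)⁻¹ * v * (s⁻¹ * g * s)⁻¹⁻¹) * s⁻¹ = g⁻¹ * (s * v * s⁻¹) * g := by group
                _ = u := by rw [show s * v * s⁻¹ = g * u * g⁻¹ from hv']; group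
          · rw [Subgroup.card_map_of_injective (MulAut.conj s).injective]
            exact coprime_card_centralizerPPrimeCore 2 a
        exact hle ⟨x, hxa, rfl⟩
      | one => simp
      | mul x y _ _ ihx ihy =>
        rw [show s * (x * y) * s⁻¹ = (s * x * s⁻¹) * (s * y * s⁻¹) by group]; exact W.mul_mem ihx ihy
      | inv x _ ih =>
        rw [show s * x⁻¹ * s⁻¹ = (s * x * s⁻¹)⁻¹ by group]; exact W.inv_mem ih
    intro s hs
    rw [Subgroup.mem_normalizer_iff]
    refine fun x => ⟨key s hs x, fun hx => ?_⟩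
    simpa [mul_assoc] using key s⁻¹ ((S : Subgroup G).inv_mem hs) _ hx
  rw [eq_bot_iff]
  intro x hx
  have : x ∈ W := Subgroup.subset_closure ⟨c, hc, hc1, hx⟩
  rwa [h.inv W hWodd hnorm] at this
where
  mul_comm' {M : Type _} [Mul M] [IsMulCommutative M] (x y : M) : x * y = y * x := IsMulCommutative.is_comm.comm x y

/-- All involutions have core-free centralizers. -/
theorem theta_eq_bot (h : Data S E) {z : G} (hz : orderOf z = 2) (hzc : ∀ s ∈ (S : Subgroup G), s * z = z * s)
    {t : G} (ht : orderOf t = 2) (htS : t ∈ (S : Subgroup G)) : θ t = ⊥ := by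
  classical
  have ht2 : t * t = 1 := by have := pow_orderOf_eq_one t; rwa [ht, pow_two] at this
  -- `t` centralizes a four-group of `E`
  set K := E ⊓ Subgroup.centralizer ({t} : Set G) with hK
  have htE : ∀ a ∈ E, t * a * t⁻¹ ∈ E := fun a ha => (Subgroup.mem_normalizer_iff.1 (h.norm htS) a).1 ha
  have hti : t⁻¹ = t := inv_eq_of_mul_eq_one_right ht2
  have hKbig : 3 ≤ Nat.card K := by
    let f : E →* K := MonoidHom.mk' (fun a => ⟨(a : G) * (t * a * t⁻¹), E.mul_mem a.2 (htE a a.2), by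
        show _ ∈ Subgroup.centralizer ({t} : Set G)
        rw [Subgroup.mem_centralizer_singleton_iff, h.comm a a.2 _ (htE a a.2), hti]
        calc t * (a : G) * t * a * t = t * ((a : G) * (t * a * t)) := by group
          _ = t * ((t * a * t) * a) := by rw [h.comm a a.2 _ (by have := htE a a.2; rwa [hti] at this)]⟩)
      fun a b => Subtype.ext (by
        show (a : G) * b * (t * ((a : G) * b) * t⁻¹) = (a : G) * (t * a * t⁻¹) * ((b : G) * (t * b * t⁻¹))
        rw [show t * ((a : G) * b) * t⁻¹ = (t * a * t⁻¹) * (t * b * t⁻¹) by group]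
        exact (show Commute (b : G) (t * a * t⁻¹) from h.comm b b.2 _ (htE a a.2)).mul_mul_mul_comm _ _)
    have hker : Nat.card f.ker ≤ Nat.card K := by
      refine Nat.card_le_card_of_injective (fun a => ⟨((a : E) : G), (a : E).2, ?_⟩) ?_
      · have e : ((a : E) : G) * (t * (a : E) * t⁻¹) = 1 := congrArg Subtype.val (MonoidHom.mem_ker.1 a.2)
        show _ ∈ Subgroup.centralizer ({t} : Set G)
        rw [Subgroup.mem_centralizer_singleton_iff]
        have e2 : t * ((a : E) : G) * t⁻¹ = (a : E) := by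
          rw [eq_inv_of_mul_eq_one_right e, inv_eq_of_mul_eq_one_right (h.sq _ (a : E).2)]
        exact (mul_inv_eq_iff_eq_mul.1 e2).symm
      · intro a b e
        exact Subtype.ext (Subtype.ext (congrArg (fun u : K => (u : G)) e))
    have h1 := f.ker.card_mul_index
    rw [Subgroup.index_ker] at h1
    have h2 : Nat.card f.range ≤ Nat.card K := Subgroup.card_le_card_group _
    by_contra hlt
    have h3 := Nat.mul_le_mul hker h2
    have h4 : Nat.card K * Nat.card K ≤ 2 * 2 := Nat.mul_le_mul (by omega) (by omega)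
    have := h.big
    omega
  obtain ⟨b, hb, hb1⟩ : ∃ b ∈ K, b ≠ 1 := by
    by_contra hcon
    push Not at hcon
    rw [Subgroup.eq_bot_iff_forall K |>.2 hcon, Subgroup.card_bot] at hKbig
    omega
  obtain ⟨c, hc, hc1, hcb⟩ : ∃ c ∈ K, c ≠ 1 ∧ c ≠ b := by
    by_contra hcon
    push Not at hcon
    have : Nat.card K ≤ 2 := by
      refine (Nat.card_le_card_of_injective (fun x : K => decide ((x : G) = 1)) ?_).trans (by simp)
      intro x y hxy
      simp only [decide_eq_decide] at hxy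
      by_cases hx : (x : G) = 1
      · exact Subtype.ext (hx.trans (hxy.1 hx).symm)
      · exact Subtype.ext ((hcon x x.2 hx).trans (hcon y y.2 (fun e => hx (hxy.2 e))).symm)
    omega
  have hbt := Subgroup.mem_centralizer_singleton_iff.1 hb.2
  have hct := Subgroup.mem_centralizer_singleton_iff.1 hc.2
  refine eq_bot_iff.2 (sq_pieces_mem h hz hzc ht2 htS hb.1 hc.1 hbt hct _ ?_)
  intro y hy e he hye
  have heE : e ∈ E ∧ e ≠ 1 ∧ e * t = t * e := by
    rcases he with rfl | rfl | rfl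
    · exact ⟨hb.1, hb1, hbt⟩
    · exact ⟨hc.1, hc1, hct⟩
    · refine ⟨E.mul_mem hb.1 hc.1, fun h0 => hcb ?_, (Commute.mul_left hbt hct).eq⟩
      rw [eq_inv_of_mul_eq_one_right h0, inv_eq_of_mul_eq_one_right (h.sq b hb.1)]
  have := balance h ht2 (orderOf_eq_two_of_mem h heE.1 heE.2.1) heE.2.2.symm hy hye
  rwa [theta_eq_bot_of_mem h hz hzc heE.1 heE.2.1] at this

end CharTwoEarly

end CfsgLib.CoreFree
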