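import Cfsg.Agent.Lib.CoreFree.CharTwoEarly
import Cfsg.Agent.Lib.CoreFree.Isolated
import Cfsg.Agent.Lib.InvChar.Basic

/-! # Characteristic two type with cyclic centres of `O₂` of the maximal 2-locals: strong embedding -/

set_option autoImplicit false

open Cfsg
open scoped Pointwise

namespace CfsgLib.CoreFree.CharTwoEarly

open CfsgLib.Balance

variable {G : Type*} [Group G] [Finite G]

local notation "θ" => Cfsg.centralizerPPrimeCore 2

theorem theta_conj_le (t g : G) : (θ t).map (MulAut.conj g).toMonoidHom ≤ θ (g * t * g⁻¹) := by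
  refine le_centralizerPPrimeCore ?_ ?_ ?_
  · rintro _ ⟨u, hu, rfl⟩
    rw [Subgroup.mem_centralizer_singleton_iff]
    show g * u * g⁻¹ * (g * t * g⁻¹) = g * t * g⁻¹ * (g * u * g⁻¹)
    rw [conj_mul, conj_mul, mul_eq_of_mem_theta hu]
  · intro x hx
    rw [Subgroup.mem_centralizer_singleton_iff] at hx
    have hx' : g⁻¹ * x * g * t = t * (g⁻¹ * x * g) := by
      calc g⁻¹ * x * g * t = g⁻¹ * (x * (g * t * g⁻¹)) * g := by group
        _ = t * (g⁻¹ * x * g) := by rw [hx]; group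
    rw [Subgroup.mem_normalizer_iff]
    intro u
    constructor
    · rintro ⟨v, hv, rfl⟩
      refine ⟨_, conj_mem_theta hx' hv, ?_⟩
      show g * (g⁻¹ * x * g * v * (g⁻¹ * x * g)⁻¹) * g⁻¹ = x * (g * v * g⁻¹) * x⁻¹
      group
    · rintro ⟨v, hv, hv'⟩
      refine ⟨_, conj_mem_theta (show Commute (g⁻¹ * x * g) t from hx').inv_left.eq hv, ?_⟩
      show g * ((g⁻¹ * x * g)⁻¹ * v * (g⁻¹ * x * g)⁻¹⁻¹) * g⁻¹ = u
      calc g * ((g⁻¹ * x * g)⁻¹ * v * (g⁻¹ * x * g)⁻¹⁻¹) * g⁻¹ = x⁻¹ * (g * v * g⁻¹) * x := by group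
        _ = u := by rw [show g * v * g⁻¹ = x * u * x⁻¹ from hv']; group
  · rw [Subgroup.card_map_of_injective (MulAut.conj g).injective]
    exact coprime_card_centralizerPPrimeCore 2 t

/-- In such a group every 2-local subgroup is constrained with trivial odd core. -/
theorem local_centralizer_le {S : Sylow 2 G} {E : Subgroup G} (h : Data S E)
    (hcon : ∀ T : Subgroup G, IsPGroup 2 T → T ≠ ⊥ → IsPConstrained 2 ↥(Subgroup.normalizer (T : Set G)))
    {z : G} (hz : orderOf z = 2) (hzc : ∀ s ∈ (S : Subgroup G), s * z = z * s)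
    {T : Subgroup G} (hT : IsPGroup 2 T) (hT1 : T ≠ ⊥) :
    Subgroup.centralizer (pCore 2 ↥(Subgroup.normalizer (T : Set G)) : Set _) ≤ pCore 2 ↥(Subgroup.normalizer (T : Set G)) := by
  haveI : Fact (Nat.Prime 2) := ⟨Nat.prime_two⟩
  set M := Subgroup.normalizer (T : Set G) with hM
  haveI : Nontrivial T := T.nontrivial_iff_ne_bot.2 hT1
  -- an involution of the centre of `T`
  obtain ⟨t, htT, ht2, htc⟩ : ∃ t ∈ T, orderOf t = 2 ∧ ∀ s ∈ T, s * t = t * s := by
    haveI : Nontrivial (Subgroup.center T) := hT.center_nontrivial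
    obtain ⟨n, hn, hn'⟩ := (hT.to_subgroup (Subgroup.center T)).nontrivial_iff_card.1 inferInstance
    obtain ⟨u, hu⟩ := exists_prime_orderOf_dvd_card' (G := Subgroup.center T) 2 (hn' ▸ dvd_pow_self 2 hn.ne')
    refine ⟨((u : T) : G), (u : T).2, ?_, fun s hs => congrArg Subtype.val (Subgroup.mem_center_iff.1 u.2 ⟨s, hs⟩)⟩
    rw [Subgroup.orderOf_coe, Subgroup.orderOf_coe, hu]
  obtain ⟨g, hg⟩ := CfsgLib.Involutions.exists_conj_mem_of_involution S ht2
  have hθ : θ t = ⊥ := by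
    have h1 := theta_conj_le t g
    rw [theta_eq_bot h hz hzc ((CfsgLib.Involutions.orderOf_conj g t).trans ht2) hg, le_bot_iff,
      Subgroup.map_eq_bot_iff_of_injective _ (MulAut.conj g).injective] at h1
    exact h1
  have hO : pPrimeCore 2 M = ⊥ := by
    set C := Subgroup.centralizer ({t} : Set G) with hC
    set O := (pPrimeCore 2 M).map M.subtype with hO'
    have hTM : T ≤ M := Subgroup.le_normalizer
    have hTcore : T.subgroupOf M ≤ pCore 2 M :=
      haveI : (T.subgroupOf M).Normal := Subgroup.normal_in_normalizer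
      CfsgLib.Cores.le_pCore (hT.comap_of_injective M.subtype M.subtype_injective)
    have hcomm : ∀ x ∈ O, ∀ s ∈ T, x * s = s * x := by
      rintro _ ⟨x, hx, rfl⟩ s hs
      exact (congrArg Subtype.val
        (CfsgLib.Cores.commute_pCore_pPrimeCore (hTcore (show (⟨s, hTM hs⟩ : M) ∈ T.subgroupOf M from hs)) hx).eq).symm
    have hOC : O ≤ C := fun x hx => Subgroup.mem_centralizer_singleton_iff.2 (hcomm x hx t htT)
    have hTC : T ≤ C := fun s hs => Subgroup.mem_centralizer_singleton_iff.2 (htc s hs)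
    have hcard : ¬ 2 ∣ Nat.card (O.subgroupOf C) := by
      rw [Nat.card_congr (Subgroup.subgroupOfEquivOfLe hOC).toEquiv,
        Subgroup.card_map_of_injective M.subtype_injective]
      exact (Nat.prime_two.coprime_iff_not_dvd).1 (CfsgLib.Cores.card_pPrimeCore_coprime 2).symm
    have h1 := le_pPrimeCore_of_centralizes (CfsgLib.SectRank.isPConstrained_iff.1 (h.con t ht2))
      (P := T.subgroupOf C) (hT.comap_of_injective C.subtype C.subtype_injective) hcard
      (fun x hx => Subgroup.mem_centralizer_iff.2 fun y hy => Subtype.ext (hcomm _ hx _ hy).symm) ?_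
    · have h2 : O ≤ θ t := fun x hx => ⟨⟨x, hOC hx⟩, h1 hx, rfl⟩
      rw [hθ, le_bot_iff, hO', Subgroup.map_eq_bot_iff_of_injective _ M.subtype_injective] at h2
      exact h2
    · intro c hc
      rw [Subgroup.mem_centralizer_iff] at hc
      have hcM : (c : G) ∈ M := by
        rw [hM, Subgroup.mem_normalizer_iff]
        intro s
        constructor
        · intro hs
          have e : s * (c : G) = c * s := congrArg Subtype.val (hc (⟨s, hTC hs⟩ : C) hs)
          rwa [← e, mul_inv_cancel_right]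
        · intro hs
          have e : ((c : G) * s * (c : G)⁻¹) * c = c * ((c : G) * s * (c : G)⁻¹) :=
            congrArg Subtype.val (hc (⟨_, hTC hs⟩ : C) hs)
          rw [inv_mul_cancel_right] at e
          rwa [mul_left_cancel e]
      rw [Subgroup.mem_normalizer_iff]
      intro x
      have hn := fun y => Subgroup.mem_normalizer_iff.1
        ((Subgroup.normal_subgroupOf_iff_le_normalizer (Subgroup.map_subtype_le (pPrimeCore 2 M))).1
          (by rw [Subgroup.subgroupOf, Subgroup.comap_map_eq_self_of_injective M.subtype_injective]; infer_instance) hcM) y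
      exact hn x
  have h3 := CfsgLib.SectRank.isPConstrained_iff.1 (hcon T hT hT1)
  exact CfsgLib.SectRank.centralizer_pCore_le_equiv
    ((QuotientGroup.quotientBot (G := M)).symm.trans (QuotientGroup.quotientMulEquivOfEq hO.symm)) h3

/-- The involution in the centre of `O₂` of a maximal 2-local. -/
theorem maximal_eq_centralizer {S : Sylow 2 G} {E : Subgroup G} (h : Data S E)
    (hcon : ∀ T : Subgroup G, IsPGroup 2 T → T ≠ ⊥ → IsPConstrained 2 ↥(Subgroup.normalizer (T : Set G)))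
    {z : G} (hz : orderOf z = 2) (hzc : ∀ s ∈ (S : Subgroup G), s * z = z * s)
    {M : Subgroup G} (hM : IsMaximalTwoLocal M) (hcyc : IsCyclic (Subgroup.center (pCore 2 M))) :
    ∃ u : G, orderOf u = 2 ∧ M = Subgroup.centralizer ({u} : Set G) ∧
      ∀ (R : Sylow 2 M) (P : Sylow 2 G), (R : Subgroup M).map M.subtype ≤ (P : Subgroup G) →
        ∀ y : G, orderOf y = 2 → y ∈ (P : Subgroup G) → (∀ s ∈ (P : Subgroup G), s * y = y * s) → y = u := by
  haveI : Fact (Nat.Prime 2) := ⟨Nat.prime_two⟩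
  obtain ⟨⟨T, hT, hT1, rfl⟩, hmax⟩ := hM
  set M := Subgroup.normalizer (T : Set G) with hM
  have hcl := local_centralizer_le h hcon hz hzc hT hT1
  set Q := pCore 2 M with hQ
  have hTQ : T.subgroupOf M ≤ Q :=
    haveI : (T.subgroupOf M).Normal := Subgroup.normal_in_normalizer
    CfsgLib.Cores.le_pCore (hT.comap_of_injective M.subtype M.subtype_injective)
  have hQp : IsPGroup 2 Q := CfsgLib.Cores.isPGroup_pCore 2 M
  haveI : Nontrivial Q := by
    obtain ⟨x, hx, hx1⟩ := (Subgroup.ne_bot_iff_exists_ne_one.1 hT1 |> fun ⟨a, ha⟩ => (⟨a.1, a.2, fun e => ha (Subtype.ext e)⟩ : ∃ x ∈ T, x ≠ 1))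
    exact ⟨⟨⟨⟨x, Subgroup.le_normalizer hx⟩, hTQ (show (⟨x, Subgroup.le_normalizer hx⟩ : M) ∈ T.subgroupOf M from hx)⟩, 1,
      fun e => hx1 (congrArg (fun q : Q => ((q : M) : G)) e)⟩⟩
  haveI : Nontrivial (Subgroup.center Q) := hQp.center_nontrivial
  obtain ⟨n, hn, hn'⟩ := (hQp.to_subgroup (Subgroup.center Q)).nontrivial_iff_card.1 inferInstance
  obtain ⟨v, hv⟩ := exists_prime_orderOf_dvd_card' (G := Subgroup.center Q) 2 (hn' ▸ dvd_pow_self 2 hn.ne')
  have huniq : ∀ w : Q, w ∈ Subgroup.center Q → orderOf w = 2 → w = v := by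
    intro w hw hw2
    have := involution_unique_of_cyclic (H := Subgroup.center Q) (x := ⟨w, hw⟩) (y := v)
      (by rw [← Subgroup.orderOf_coe]; exact hw2) hv
    exact congrArg Subtype.val this
  set u : G := (((v : Q) : M) : G) with hu
  have hu2 : orderOf u = 2 := by rw [hu, Subgroup.orderOf_coe, Subgroup.orderOf_coe, Subgroup.orderOf_coe, hv]
  have hMu : M ≤ Subgroup.centralizer ({u} : Set G) := by
    intro m hm
    let e : Q ≃* Q := MulAut.conjNormal (⟨m, hm⟩ : M)
    have h1 := huniq (e v) (by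
      rw [Subgroup.mem_center_iff]
      intro q
      obtain ⟨q, rfl⟩ := e.surjective q
      rw [← map_mul, ← map_mul, Subgroup.mem_center_iff.1 v.2 q])
      (by rw [MulEquiv.orderOf_eq, Subgroup.orderOf_coe]; exact hv)
    rw [Subgroup.mem_centralizer_singleton_iff]
    have h2 : m * u * m⁻¹ = u := congrArg (fun q : Q => ((q : M) : G)) h1
    exact mul_inv_eq_iff_eq_mul.1 h2
  have hloc : IsTwoLocal (Subgroup.centralizer ({u} : Set G)) := by
    refine ⟨Subgroup.zpowers u, CfsgLib.Involutions.isPGroup_zpowers_of_involution hu2, ?_, ?_⟩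
    · rw [Ne, Subgroup.zpowers_eq_bot]; exact CfsgLib.Involutions.ne_one hu2
    · refine le_antisymm (fun g hg => ?_) (fun g hg => ?_)
      · rw [Subgroup.mem_centralizer_singleton_iff] at hg
        rw [Subgroup.mem_normalizer_iff]
        intro x
        constructor
        · rintro ⟨k, rfl⟩
          exact ⟨k, by show u ^ k = g * u ^ k * g⁻¹; rw [((show Commute g u from hg).zpow_right k).eq, mul_inv_cancel_right]⟩
        · rintro ⟨k, hk⟩
          refine ⟨k, ?_⟩
          have hk' : u ^ k = g * x * g⁻¹ := hk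
          show u ^ k = x
          calc u ^ k = g⁻¹ * (g * u ^ k) := by group
            _ = g⁻¹ * (u ^ k * g) := by rw [((show Commute g u from hg).zpow_right k).eq]
            _ = x := by rw [hk']; group
      · rw [Subgroup.mem_centralizer_singleton_iff]
        obtain ⟨k, hk⟩ := (Subgroup.mem_normalizer_iff.1 hg u).1 (Subgroup.mem_zpowers u)
        have hk' : u ^ k = g * u * g⁻¹ := hk
        rw [← zpow_mod_orderOf, hu2] at hk'
        rcases Int.emod_two_eq k with e | e <;> simp only [Nat.cast_ofNat, e, zpow_zero, zpow_one] at hk'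
        · exact absurd (conj_eq_one_iff.1 hk'.symm) (CfsgLib.Involutions.ne_one hu2)
        · exact mul_inv_eq_iff_eq_mul.1 hk'.symm
  have hMeq : Subgroup.centralizer ({u} : Set G) = M := hmax _ hloc hMu
  refine ⟨u, hu2, hMeq.symm, fun R P hRP y hy hyP hyc => ?_⟩
  have hQR : ∀ q : M, q ∈ Q → (q : G) ∈ (P : Subgroup G) := fun q hq => by
    refine hRP ⟨q, ?_, rfl⟩
    obtain ⟨R', hR'⟩ := hQp.exists_le_sylow
    obtain ⟨g, rfl⟩ := MulAction.exists_smul_eq M R' R
    have hq' : g⁻¹ * q * g ∈ Q := (inferInstance : Q.Normal).conj_mem' q hq g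
    exact ⟨g⁻¹ * q * g, hR' hq', by show g * (g⁻¹ * q * g) * g⁻¹ = q; group⟩
  have hyM : y ∈ M := by
    rw [← hMeq, Subgroup.mem_centralizer_singleton_iff]
    exact (hyc u (hQR _ (v : Q).2)).symm
  have hy' : (⟨y, hyM⟩ : M) ∈ Q := hcl (Subgroup.mem_centralizer_iff.2 fun q hq => Subtype.ext (hyc _ (hQR q hq)))
  have h1 := huniq ⟨⟨y, hyM⟩, hy'⟩ (Subgroup.mem_center_iff.2 fun q => Subtype.ext (Subtype.ext (hyc _ (hQR _ q.2))))
    (by rw [← Subgroup.orderOf_coe, ← Subgroup.orderOf_coe]; exact hy)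
  exact congrArg (fun q : Q => ((q : M) : G)) h1

theorem exists_maximal_local {T : Subgroup G} (hT : IsPGroup 2 T) (hT1 : T ≠ ⊥) :
    ∃ M : Subgroup G, IsMaximalTwoLocal M ∧ Subgroup.normalizer (T : Set G) ≤ M := by
  obtain ⟨M, hM⟩ := (Set.toFinite {M : Subgroup G | IsTwoLocal M ∧ Subgroup.normalizer (T : Set G) ≤ M}).exists_maximal
    ⟨_, ⟨T, hT, hT1, rfl⟩, le_rfl⟩
  exact ⟨M, ⟨hM.prop.1, fun N hN hle => le_antisymm (hM.le_of_ge ⟨hN, hM.prop.2.trans hle⟩ hle) hle⟩, hM.prop.2⟩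

/-- If all maximal 2-local subgroups have cyclic centre of `O₂` then the centralizer of a 2-central involution is
strongly embedded. -/
theorem strongly_embedded {S : Sylow 2 G} {E : Subgroup G} (h : Data S E)
    (hcon : ∀ T : Subgroup G, IsPGroup 2 T → T ≠ ⊥ → IsPConstrained 2 ↥(Subgroup.normalizer (T : Set G)))
    (hall : ∀ M : Subgroup G, IsMaximalTwoLocal M → IsCyclic (Subgroup.center (pCore 2 M)))
    {z : G} (hz : orderOf z = 2) (hzS : z ∈ (S : Subgroup G)) (hzc : ∀ s ∈ (S : Subgroup G), s * z = z * s) :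
    ∀ t ∈ Subgroup.centralizer ({z} : Set G), orderOf t = 2 → ∀ g : G,
      g * t * g⁻¹ ∈ Subgroup.centralizer ({z} : Set G) → g ∈ Subgroup.centralizer ({z} : Set G) := by
  haveI : Fact (Nat.Prime 2) := ⟨Nat.prime_two⟩
  let Zs : Sylow 2 G → G → Prop := fun P y => orderOf y = 2 ∧ y ∈ (P : Subgroup G) ∧ ∀ s ∈ (P : Subgroup G), s * y = y * s
  have hexZ : ∀ P : Sylow 2 G, ∃ y, Zs P y := by
    intro P
    obtain ⟨g, rfl⟩ := MulAction.exists_smul_eq G S P
    refine ⟨g * z * g⁻¹, (CfsgLib.Involutions.orderOf_conj g z).trans hz, ⟨z, hzS, rfl⟩, ?_⟩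
    rintro _ ⟨s, hs, rfl⟩
    show g * s * g⁻¹ * (g * z * g⁻¹) = g * z * g⁻¹ * (g * s * g⁻¹)
    rw [conj_mul, conj_mul, hzc s hs]
  -- every normalizer of a 2-subgroup lies in the centralizer of the central involution of a suitable Sylow subgroup
  have key : ∀ (D : Subgroup G), IsPGroup 2 D → D ≠ ⊥ → ∃ u : G, Subgroup.normalizer (D : Set G) ≤ Subgroup.centralizer ({u} : Set G) ∧
      ∀ A : Subgroup G, IsPGroup 2 A → A ≤ Subgroup.normalizer (D : Set G) → ∃ P : Sylow 2 G, A ≤ (P : Subgroup G) ∧ ∀ y, Zs P y → y = u := by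
    intro D hD hD1
    obtain ⟨M, hM, hle⟩ := exists_maximal_local hD hD1
    obtain ⟨u, hu2, hMu, hprop⟩ := maximal_eq_centralizer h hcon hz hzc hM (hall M hM)
    refine ⟨u, hMu ▸ hle, fun A hA hAD => ?_⟩
    obtain ⟨R, hR⟩ := (hA.comap_of_injective M.subtype M.subtype_injective).exists_le_sylow
    obtain ⟨P, hP⟩ := (R.isPGroup'.map M.subtype).exists_le_sylow
    exact ⟨P, fun a ha => hP ⟨⟨a, hle (hAD ha)⟩, hR (show (⟨a, hle (hAD ha)⟩ : M).1 ∈ A from ha), rfl⟩,
      fun y hy => hprop R P hP y hy.1 hy.2.1 hy.2.2⟩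
  have huniqZ : ∀ (P : Sylow 2 G) y y', Zs P y → Zs P y' → y = y' := by
    intro P y y' hy hy'
    have hle : (P : Subgroup G) ≤ Subgroup.normalizer (Subgroup.zpowers y : Set G) := by
      intro s hs
      rw [Subgroup.mem_normalizer_iff]
      intro x
      have e : Commute s y := hy.2.2 s hs
      constructor
      · rintro ⟨k, rfl⟩
        exact ⟨k, by show y ^ k = s * y ^ k * s⁻¹; rw [(e.zpow_right k).eq, mul_inv_cancel_right]⟩
      · rintro ⟨k, hk⟩
        refine ⟨k, ?_⟩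
        have hk' : y ^ k = s * x * s⁻¹ := hk
        show y ^ k = x
        calc y ^ k = s⁻¹ * (s * y ^ k) := by group
          _ = s⁻¹ * (y ^ k * s) := by rw [(e.zpow_right k).eq]
          _ = x := by rw [hk']; group
    obtain ⟨u, -, hu⟩ := key (Subgroup.zpowers y) (CfsgLib.Involutions.isPGroup_zpowers_of_involution hy.1)
      (by rw [Ne, Subgroup.zpowers_eq_bot]; exact CfsgLib.Involutions.ne_one hy.1)
    obtain ⟨P', hP', hu'⟩ := hu P P.isPGroup' hle
    have : P' = P := Sylow.ext (P.3 P'.isPGroup' hP')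
    subst this
    rw [hu' y hy, hu' y' hy']
  -- Sylow subgroups with different central involutions meet trivially
  have hTI : ∀ (P Q : Sylow 2 G), (P : Subgroup G) ⊓ (Q : Subgroup G) ≠ ⊥ → ∀ y y', Zs P y → Zs Q y' → y = y' := by
    by_contra hcon'
    push Not at hcon'
    let bad : Set (Sylow 2 G × Sylow 2 G) := {pq | (pq.1 : Subgroup G) ⊓ (pq.2 : Subgroup G) ≠ ⊥ ∧ ∃ y y', Zs pq.1 y ∧ Zs pq.2 y' ∧ y ≠ y'}
    obtain ⟨P₀, Q₀, h0, y₀, y₀', hy₀, hy₀', hne₀⟩ := hcon'
    obtain ⟨⟨P, Q⟩, ⟨hne, y, y', hy, hy', hyy⟩, hmax⟩ := Set.exists_max_image bad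
      (fun pq => Nat.card ↥((pq.1 : Subgroup G) ⊓ (pq.2 : Subgroup G))) (Set.toFinite _)
      ⟨(P₀, Q₀), h0, y₀, y₀', hy₀, hy₀', hne₀⟩
    set D := (P : Subgroup G) ⊓ (Q : Subgroup G) with hD
    obtain ⟨u, -, hu⟩ := key D (P.isPGroup'.to_le inf_le_left) hne
    have side : ∀ (P' : Sylow 2 G) (w : G), Zs P' w → D < (P' : Subgroup G) → w = u := by
      intro P' w hw hlt
      obtain ⟨x, hx, hxD, hxN⟩ := CfsgLib.InvChar.exists_mem_normalizer_not_mem P'.isPGroup' hlt
      obtain ⟨P1, hP1, hu1⟩ := hu ((P' : Subgroup G) ⊓ Subgroup.normalizer (D : Set G)) (P'.isPGroup'.to_le inf_le_left) inf_le_right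
      obtain ⟨w1, hw1⟩ := hexZ P1
      by_contra hwu
      have hlt' : Nat.card D < Nat.card ↥((P' : Subgroup G) ⊓ (P1 : Subgroup G)) := by
        have hle' : (P' : Subgroup G) ⊓ Subgroup.normalizer (D : Set G) ≤ (P' : Subgroup G) ⊓ (P1 : Subgroup G) :=
          le_inf inf_le_left hP1
        have hle'' : D < (P' : Subgroup G) ⊓ Subgroup.normalizer (D : Set G) :=
          SetLike.lt_iff_le_and_exists.2 ⟨le_inf hlt.le Subgroup.le_normalizer, x, Subgroup.mem_inf.2 ⟨hx, hxN⟩, hxD⟩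
        refine lt_of_lt_of_le ?_ (Subgroup.card_le_of_le hle')
        exact lt_of_le_of_ne (Subgroup.card_le_of_le hle''.le) fun e => hle''.ne (Subgroup.eq_of_le_of_card_ge hle''.le e.ge)
      have hb : (P', P1) ∈ bad := ⟨fun e => by rw [e, Subgroup.card_bot] at hlt'; have := Nat.card_pos (α := D); omega,
        w, w1, hw, hw1, fun e => hwu (e.trans (hu1 w1 hw1))⟩
      have := hmax _ hb
      simp only at this
      omega
    have hPQ : P ≠ Q := fun e => hyy (huniqZ P y y' hy (e ▸ hy'))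
    refine hyy ((side P y hy ?_).trans (side Q y' hy' ?_).symm)
    · exact lt_of_le_of_ne inf_le_left fun e => hPQ (Sylow.ext (P.3 Q.isPGroup' (e ▸ inf_le_right)).symm)
    · exact lt_of_le_of_ne inf_le_right fun e => hPQ (Sylow.ext (Q.3 P.isPGroup' (e ▸ inf_le_left)))
  intro t ht ht2 g hgt
  have hSC : (S : Subgroup G) ≤ Subgroup.centralizer ({z} : Set G) := fun s hs =>
    Subgroup.mem_centralizer_singleton_iff.2 (hzc s hs)
  have hmemZ : ∀ x ∈ Subgroup.centralizer ({z} : Set G), orderOf x = 2 → ∃ P : Sylow 2 G, x ∈ (P : Subgroup G) ∧ Zs P z := by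
    intro x hx hx2
    obtain ⟨c, hc⟩ := CfsgLib.Involutions.exists_conj_mem_of_involution (S.subtype hSC)
      (t := (⟨x, hx⟩ : Subgroup.centralizer ({z} : Set G))) (by rw [← Subgroup.orderOf_coe]; exact hx2)
    have hzfix : (c : G)⁻¹ * z * (c : G)⁻¹⁻¹ = z := by
      rw [inv_inv, mul_assoc, ← Subgroup.mem_centralizer_singleton_iff.1 c.2, inv_mul_cancel_left]
    refine ⟨(c : G)⁻¹ • S, ⟨(c : G) * x * (c : G)⁻¹, hc, by show (c : G)⁻¹ * ((c : G) * x * (c : G)⁻¹) * (c : G)⁻¹⁻¹ = x; group⟩,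
      hz, ⟨z, hzS, hzfix⟩, ?_⟩
    rintro _ ⟨s, hs, rfl⟩
    show (c : G)⁻¹ * s * (c : G)⁻¹⁻¹ * z = z * ((c : G)⁻¹ * s * (c : G)⁻¹⁻¹)
    have e : (c : G) * z = z * c := Subgroup.mem_centralizer_singleton_iff.1 c.2
    have e' : (c : G)⁻¹ * z = z * (c : G)⁻¹ := (show Commute (c : G) z from e).inv_left.eq
    calc (c : G)⁻¹ * s * (c : G)⁻¹⁻¹ * z = (c : G)⁻¹ * s * ((c : G) * z) := by group
      _ = (c : G)⁻¹ * (s * z) * c := by rw [e]; group
      _ = ((c : G)⁻¹ * z) * s * c := by rw [hzc s hs]; group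
      _ = z * ((c : G)⁻¹ * s * (c : G)⁻¹⁻¹) := by rw [e']; group
  obtain ⟨P, htP, hZP⟩ := hmemZ t ht ht2
  obtain ⟨Q, htQ, hZQ⟩ := hmemZ _ hgt ((CfsgLib.Involutions.orderOf_conj g t).trans ht2)
  have hconjZ : Zs (g • P) (g * z * g⁻¹) := by
    refine ⟨(CfsgLib.Involutions.orderOf_conj g z).trans hz, ⟨z, hZP.2.1, rfl⟩, ?_⟩
    rintro _ ⟨s, hs, rfl⟩
    show g * s * g⁻¹ * (g * z * g⁻¹) = g * z * g⁻¹ * (g * s * g⁻¹)
    rw [conj_mul, conj_mul, hZP.2.2 s hs]
  have := hTI Q (g • P) (fun e => by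
    have hmem : g * t * g⁻¹ ∈ (Q : Subgroup G) ⊓ ((g • P : Sylow 2 G) : Subgroup G) := ⟨htQ, ⟨t, htP, rfl⟩⟩
    rw [e, Subgroup.mem_bot, conj_eq_one_iff] at hmem
    exact CfsgLib.Involutions.ne_one ht2 hmem) z _ hZQ hconjZ
  rw [Subgroup.mem_centralizer_singleton_iff]
  exact (mul_inv_eq_iff_eq_mul.1 this.symm)

end CfsgLib.CoreFree.CharTwoEarly
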