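import Cfsg.Agent.Lib.SL2.Torus

/-! `SL₂` over a finite field of odd order is indecomposable as a central product. -/

set_option autoImplicit false

namespace CfsgLib.CoreFree

open Matrix
open scoped MatrixGroups

variable {F : Type*} [Field F]

theorem two_ne_zero_of_odd_card [Fintype F] (h : Odd (Fintype.card F)) : (2 : F) ≠ 0 := by
  intro h2
  haveI : Fact (Nat.Prime (ringChar F)) := ⟨(CharP.char_is_prime_or_zero F (ringChar F)).resolve_right
    (CharP.ringChar_ne_zero_of_finite F)⟩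
  have hd : ringChar F ∣ 2 := (ringChar.spec F 2).1 (by exact_mod_cast h2)
  have h3 : ringChar F = 2 := (Nat.prime_dvd_prime_iff_eq Fact.out Nat.prime_two).1 hd
  have h4 := FiniteField.even_card_of_char_two h3
  rw [Nat.odd_iff] at h
  omega

theorem neg_one_mul_eq (g : SL(2, F)) : (-1 : SL(2, F)) * g = -g := by
  apply Subtype.ext; simp

theorem tr_neg (g : SL(2, F)) : SL2.tr (-g) = -SL2.tr g := by
  simp [SL2.tr]; ring

/-- If `b` sends an element of non-zero trace to `±` itself, it centralises it. -/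
theorem commute_of_commutator_mem_center (h2 : (2 : F) ≠ 0) {w b : SL(2, F)} (hw : SL2.tr w ≠ 0)
    (h : w * b * w⁻¹ * b⁻¹ ∈ Subgroup.center (SL(2, F))) : b * w = w * b := by
  rcases (SL2.mem_center_iff _).1 h with e | e
  · rw [mul_inv_eq_one, mul_inv_eq_iff_eq_mul] at e
    exact e.symm
  · exfalso
    apply hw
    have e' : b * w * b⁻¹ = -w := by
      have h1 : w * b = (-1 : SL(2, F)) * b * w := by rw [← e]; group
      have h3 : b * w = (-1 : SL(2, F)) * (w * b) := by
        rw [h1, ← mul_assoc, ← mul_assoc]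
        simp
      rw [h3, neg_one_mul_eq, neg_mul, mul_inv_cancel_right]
    have h3 := congrArg SL2.tr e'
    rw [SL2.tr_conj, tr_neg] at h3
    exact (mul_eq_zero.1 (show (2 : F) * SL2.tr w = 0 by linear_combination h3)).resolve_left h2

theorem mem_center_or_of_pair (h2 : (2 : F) ≠ 0) (A B : Subgroup (SL(2, F)))
    (hcomm : ∀ a ∈ A, ∀ b ∈ B, a * b * a⁻¹ * b⁻¹ ∈ Subgroup.center (SL(2, F)))
    (hgen : ∀ g : SL(2, F), ∃ a ∈ A, ∃ b ∈ B, g = a * b) :
    A ≤ Subgroup.center (SL(2, F)) ∨ B ≤ Subgroup.center (SL(2, F)) := by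
  by_contra hcon
  rw [not_or, SetLike.not_le_iff_exists, SetLike.not_le_iff_exists] at hcon
  obtain ⟨⟨a₀, ha₀, ha₀c⟩, ⟨b₀, hb₀, hb₀c⟩⟩ := hcon
  let u : SL(2, F) := ⟨!![1, 1; 0, 1], by simp [det_fin_two]⟩
  let v : SL(2, F) := ⟨!![1, 0; -1, 1], by simp [det_fin_two]⟩
  let g : SL(2, F) := ⟨!![0, -1; 1, 0], by simp [det_fin_two]⟩
  have hguv : g * u * g⁻¹ = v := by
    rw [mul_inv_eq_iff_eq_mul]
    apply Subtype.ext
    rw [Matrix.SpecialLinearGroup.coe_mul, Matrix.SpecialLinearGroup.coe_mul]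
    ext i j
    fin_cases i <;> fin_cases j <;> simp [g, u, v, Matrix.mul_apply]
  have huv : u * v ≠ v * u := by
    intro e
    have := congrArg (fun x : SL(2, F) => (x : Matrix (Fin 2) (Fin 2) F) 0 0) e
    rw [Matrix.SpecialLinearGroup.coe_mul, Matrix.SpecialLinearGroup.coe_mul] at this
    simp [u, v, Matrix.mul_apply] at this
  have huc : u ∉ Subgroup.center (SL(2, F)) := fun h => huv ((Subgroup.mem_center_iff.1 h v).symm)
  have hutr : SL2.tr u ≠ 0 := by
    simpa [SL2.tr, u, one_add_one_eq_two] using h2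
  have hu2 : SL2.tr u = 2 := by simp [SL2.tr, u]; norm_num
  -- central elements commute with everything
  have hcen : ∀ x y : SL(2, F), x ∈ Subgroup.center (SL(2, F)) → x * y = y * x :=
    fun x y hx => (Subgroup.mem_center_iff.1 hx y).symm
  -- a factor contains a non-central element of `C(u)`
  obtain ⟨A', B', w, hA', hB', hcomm', hgen', hwA, hwc, hwu⟩ :
      ∃ (A' B' : Subgroup (SL(2, F))) (w : SL(2, F)), (∃ x ∈ A', x ∉ Subgroup.center (SL(2, F))) ∧
        (∃ x ∈ B', x ∉ Subgroup.center (SL(2, F))) ∧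
        (∀ a ∈ A', ∀ b ∈ B', a * b * a⁻¹ * b⁻¹ ∈ Subgroup.center (SL(2, F))) ∧
        (∀ g : SL(2, F), ∃ a ∈ A', ∃ b ∈ B', g = a * b) ∧ w ∈ A' ∧
        w ∉ Subgroup.center (SL(2, F)) ∧ u * w = w * u := by
    obtain ⟨a, ha, b, hb, hab⟩ := hgen u
    by_cases hac : a ∈ Subgroup.center (SL(2, F))
    · have hbc : b ∉ Subgroup.center (SL(2, F)) := fun hb' => huc (hab ▸ mul_mem hac hb')
      refine ⟨B, A, b, ⟨b, hb, hbc⟩, ⟨a₀, ha₀, ha₀c⟩, fun x hx y hy => ?_, fun z => ?_, hb, hbc, ?_⟩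
      · have := Subgroup.inv_mem _ (hcomm y hy x hx)
        simpa [mul_assoc] using this
      · obtain ⟨x, hx, y, hy, hxy⟩ := hgen z⁻¹
        exact ⟨y⁻¹, B.inv_mem hy, x⁻¹, A.inv_mem hx, by rw [← _root_.mul_inv_rev, ← hxy, inv_inv]⟩
      · calc u * b = b * a * b := by rw [hab, hcen a b hac]
          _ = b * u := by rw [hab, mul_assoc]
    · refine ⟨A, B, a, ⟨a, ha, hac⟩, ⟨b₀, hb₀, hb₀c⟩, hcomm, hgen, ha, hac, ?_⟩
      have hcab : u * a * u⁻¹ * a⁻¹ ∈ Subgroup.center (SL(2, F)) := by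
        have h1 := hcomm a ha b hb
        have h3 := Subgroup.inv_mem _ h1
        have e : u * a * u⁻¹ * a⁻¹ = a * ((a * b * a⁻¹ * b⁻¹)⁻¹) * a⁻¹ := by rw [hab]; group
        rw [e, ← hcen _ a h3, mul_inv_cancel_right]
        exact h3
      exact (commute_of_commutator_mem_center h2 hutr hcab).symm
  have hwCu : w ∈ Subgroup.centralizer ({u} : Set (SL(2, F))) :=
    Subgroup.mem_centralizer_singleton_iff.2 hwu.symm
  have hwtr : SL2.tr w ≠ 0 := by
    obtain ⟨p, q, hpq⟩ := (SL2.mem_centralizer_singleton_iff' huc w).1 hwCu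
    have hd := SL2.det_lin u p q
    rw [← hpq, w.det_coe, hu2] at hd
    have htr : SL2.tr w = 2 * (p + q) := by
      simp only [SL2.tr, hpq]
      simp [u]; ring
    intro h0
    rw [htr] at h0
    have h3 : p + q = 0 := (mul_eq_zero.1 h0).resolve_left h2
    have : (p + q) * (p + q) = 1 := by linear_combination -hd
    rw [h3, zero_mul] at this
    exact one_ne_zero this.symm
  obtain ⟨b, hb, hbc⟩ := hB'
  have hbw : b * w = w * b := commute_of_commutator_mem_center h2 hwtr (hcomm' w hwA b hb)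
  obtain ⟨a', ha', b', hb'm, hg⟩ := hgen' g
  have hb'w : b' * w = w * b' := commute_of_commutator_mem_center h2 hwtr (hcomm' w hwA b' hb'm)
  have hgw : g * w * g⁻¹ ∈ A' := by
    rw [show g * w * g⁻¹ = a' * (b' * w * b'⁻¹) * a'⁻¹ by rw [hg]; group, hb'w, mul_inv_cancel_right]
    exact A'.mul_mem (A'.mul_mem ha' hwA) (A'.inv_mem ha')
  have hgwtr : SL2.tr (g * w * g⁻¹) ≠ 0 := by rw [SL2.tr_conj]; exact hwtr
  have hbgw : b * (g * w * g⁻¹) = (g * w * g⁻¹) * b :=
    commute_of_commutator_mem_center h2 hgwtr (hcomm' _ hgw b hb)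
  have hgwc : g * w * g⁻¹ ∉ Subgroup.center (SL(2, F)) := by
    intro h
    have := (inferInstance : (Subgroup.center (SL(2, F))).Normal).conj_mem _ h g⁻¹
    exact hwc (by simpa [mul_assoc] using this)
  have e1 := SL2.centralizer_eq_of_mem hwc (Subgroup.mem_centralizer_singleton_iff.2 hbw) hbc
  have e2 := SL2.centralizer_eq_of_mem hgwc (Subgroup.mem_centralizer_singleton_iff.2 hbgw) hbc
  have e3 := SL2.centralizer_eq_of_mem huc hwCu hwc
  have hv : v ∈ Subgroup.centralizer ({g * w * g⁻¹} : Set (SL(2, F))) := by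
    rw [Subgroup.mem_centralizer_singleton_iff, ← hguv]
    calc g * u * g⁻¹ * (g * w * g⁻¹) = g * (u * w) * g⁻¹ := by group
      _ = g * (w * u) * g⁻¹ := by rw [hwu]
      _ = g * w * g⁻¹ * (g * u * g⁻¹) := by group
  rw [← e2, e1, e3, Subgroup.mem_centralizer_singleton_iff] at hv
  exact huv hv.symm

theorem not_subsingleton_quotient_center (F : Type*) [Field F] :
    ∃ g : SL(2, F), g ∉ Subgroup.center (SL(2, F)) := by
  refine ⟨⟨!![1, 1; 0, 1], by simp [det_fin_two]⟩, fun h => ?_⟩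
  have h1 := ((SL2.mem_center_iff_isScalarMat (F := F) _).1 h).1
  simp at h1

end CfsgLib.CoreFree
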