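import Cfsg.Agent.Lib.CoreFree.SwapSquareRoots
import Cfsg.Agent.Lib.CoreFree.OddCommCriterion
import Cfsg.Agent.S3209

/-! # The central involution of `(SL₂ * SL₂)⟨n⟩`, `n² = j`, is isolated -/

set_option autoImplicit false

open scoped MatrixGroups

namespace CfsgLib.CoreFree

open Swap Swap.Swap in
theorem oddComm_swap_square {G : Type*} [Group G] [Finite G]
    {F₁ : Type*} [Field F₁] [Fintype F₁] {F₂ : Type*} [Field F₂] [Fintype F₂]
    (hF₁ : Odd (Fintype.card F₁)) (hF₂ : Odd (Fintype.card F₂)) (L₁ L₂ : Subgroup G)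
    (e₁ : ↥L₁ ≃* SL(2, F₁)) (e₂ : ↥L₂ ≃* SL(2, F₂))
    (hc : ∀ x ∈ L₁, ∀ y ∈ L₂, x * y = y * x) (j : G) (hj : orderOf j = 2)
    (hm : L₁ ⊓ L₂ = Subgroup.zpowers j)
    (hle : L₁ ⊔ L₂ ≤ Subgroup.centralizer ({j} : Set G))
    (hi : (L₁ ⊔ L₂).relIndex (Subgroup.centralizer ({j} : Set G)) = 2) (n : G)
    (hn : n ∈ Subgroup.centralizer ({j} : Set G)) (hn2 : n ^ 2 = j)
    (hswap : L₁.map (MulAut.conj n).toMonoidHom = L₂) : CfsgLib.Involutions.OddComm j := by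
  classical
  have h2 := two_ne_zero_of_odd_card hF₁
  have hn11 := CfsgLib.SL2.neg_one_ne_one (F := F₁) h2
  have hj2 : j * j = 1 := CfsgLib.Involutions.mul_self_eq_one hj
  have hj1 : j ≠ 1 := CfsgLib.Involutions.ne_one hj
  have hjL : j ∈ L₁ ⊓ L₂ := hm.ge (Subgroup.mem_zpowers j)
  set φ : SL(2, F₁) →* G := L₁.subtype.comp e₁.symm.toMonoidHom with hφ
  have hφL : ∀ u, φ u ∈ L₁ := fun u => (e₁.symm u).2
  have hφinj : Function.Injective φ := fun u v e => e₁.symm.injective (Subtype.ext e)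
  have hφneg : φ (-1) = j := by
    rcases Cfsg.Agent.S3209.involution_unique h2 L₁ e₁ j hj2 hj1 hjL.1 (φ (-1)) (hφL _)
      (by rw [← map_mul, neg_mul_neg, one_mul, map_one]) with e | e
    · exact absurd (hφinj (e.trans (map_one φ).symm)) hn11
    · exact e
  have hjc : ∀ w, j * φ w = φ w * j := fun w =>
    (Subgroup.mem_centralizer_singleton_iff.1 (hle (Subgroup.mem_sup_left (hφL w)))).symm
  have hnL : ∀ v, n * φ v * n⁻¹ ∈ L₂ := fun v => hswap ▸ Subgroup.mem_map_of_mem _ (hφL v)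
  have h : Swap φ n j := by
    refine ⟨h2, hφinj, hφneg, fun u v => hc _ (hφL u) _ (hnL v), ?_, by rw [← pow_two, hn2], hj1⟩
    intro u v e
    have hz : φ u ∈ L₁ ⊓ L₂ := ⟨hφL u, e ▸ hnL v⟩
    rw [hm] at hz
    obtain ⟨i, hi'⟩ := Subgroup.mem_zpowers_iff.1 hz
    rw [← zpow_mod_orderOf, hj] at hi'
    rcases Int.emod_two_eq i with hk | hk <;> push_cast at hi' <;> rw [hk] at hi'
    · exact Or.inl (hφinj (by rw [← hi', zpow_zero, map_one]))
    · exact Or.inr (hφinj (by rw [← hi', zpow_one, hφneg]))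
  set M := L₁ ⊔ L₂ with hM
  set C := Subgroup.centralizer ({j} : Set G) with hC
  -- `M` consists of the pairs
  have hPM : ∀ u v, P φ n u v ∈ M := fun u v => Subgroup.mul_mem_sup (hφL u) (hnL v)
  have hML : ∀ m ∈ M, ∃ u v, m = P φ n u v := by
    have hex : ∀ x ∈ L₁, ∃ u, φ u = x := fun x hx => ⟨e₁ ⟨x, hx⟩, by simp [hφ]⟩
    intro m hm'
    rw [hM, Subgroup.sup_eq_closure] at hm'
    refine Subgroup.closure_induction (p := fun x _ => ∃ u v, x = P φ n u v) ?_ ⟨1, 1, h.P_one.symm⟩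
      ?_ ?_ hm'
    · rintro x (hx | hx)
      · obtain ⟨u, rfl⟩ := hex x hx
        exact ⟨u, 1, by simp [P]⟩
      · rw [SetLike.mem_coe, ← hswap] at hx
        obtain ⟨y, hy, rfl⟩ := hx
        obtain ⟨v, rfl⟩ := hex y hy
        exact ⟨1, v, by simp [P]⟩
    · rintro x y - - ⟨u, v, rfl⟩ ⟨u', v', rfl⟩
      exact ⟨_, _, h.P_mul u v u' v'⟩
    · rintro x - ⟨u, v, rfl⟩
      refine ⟨u⁻¹, v⁻¹, inv_eq_of_mul_eq_one_right ?_⟩
      rw [h.P_mul, mul_inv_cancel, mul_inv_cancel, h.P_one]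
  have hnM : n ∉ M := by
    intro hnm
    obtain ⟨p, q, hpq⟩ := hML n hnm
    let a : SL(2, F₁) := ⟨!![1, 1; 0, 1], by simp [Matrix.det_fin_two]⟩
    have e := h.n_conj a 1 hjc
    replace e : P φ n p q * P φ n a 1 = P φ n 1 a * P φ n p q := by rw [← hpq]; exact e
    rw [h.P_mul, h.P_mul] at e
    rcases h.P_eq e with ⟨e1, -⟩ | ⟨e1, -⟩
    · rw [one_mul, eq_comm, mul_eq_left] at e1
      simpa [a, Matrix.SpecialLinearGroup.coe_neg] using congrArg (fun x : SL(2, F₁) => (x : Matrix (Fin 2) (Fin 2) F₁) 0 1) e1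
    · rw [one_mul, ← mul_neg, eq_comm, mul_eq_left] at e1
      have h01 : ((-a : SL(2, F₁)) : Matrix (Fin 2) (Fin 2) F₁) 0 1 = ((1 : SL(2, F₁)) : Matrix (Fin 2) (Fin 2) F₁) 0 1 := by rw [e1]
      rw [Matrix.SpecialLinearGroup.coe_neg, Matrix.SpecialLinearGroup.coe_one, Matrix.neg_apply, Matrix.one_apply_ne (by decide), neg_eq_zero] at h01
      exact one_ne_zero (α := F₁) h01
  have hKC : ∀ d, d ∈ C → ∃ u v, d = P φ n u v ∨ d = n * P φ n u v := by
    intro d hd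
    by_cases hdM : d ∈ M
    · obtain ⟨u, v, e⟩ := hML d hdM
      exact ⟨u, v, Or.inl e⟩
    · have hidx : (M.subgroupOf C).index = 2 := hi
      have hiff := Subgroup.mul_mem_iff_of_index_two hidx (a := (⟨n, hn⟩ : C)⁻¹) (b := ⟨d, hd⟩)
      have h0 : (⟨n, hn⟩ : C)⁻¹ * ⟨d, hd⟩ ∈ M.subgroupOf C :=
        hiff.2 ⟨fun hh => absurd (inv_mem_iff.1 hh) hnM, fun hh => absurd hh hdM⟩
      obtain ⟨u, v, e⟩ := hML (n⁻¹ * d) h0
      exact ⟨u, v, Or.inr (by rw [← e, mul_inv_cancel_left])⟩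
  -- involutions of the centraliser lie in `M`
  have hinvM : ∀ d ∈ C, d * d = 1 → d ∈ M := by
    intro d hd hdd
    obtain ⟨u, v, rfl | rfl⟩ := hKC d hd
    · exact hPM u v
    · exfalso
      rw [h.sq_outer hjc, ← h.P_one] at hdd
      rcases h.P_eq hdd.symm with ⟨e1, e2⟩ | ⟨e1, e2⟩
      · have e3 : v * u = 1 := by rw [mul_eq_one_iff_eq_inv', ← mul_eq_one_iff_eq_inv', ← mul_eq_one_comm]; exact e2
        rw [e3] at e1; exact hn11 e1
      · have e3 : v * u = 1 := by rw [← neg_neg (v * u), e1, neg_neg]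
        rw [mul_eq_one_comm.1 e3] at e2; exact hn11 e2.symm
  -- an element of order four and the class of involutions
  let a : SL(2, F₁) := ⟨!![0, -1; 1, 0], by simp [Matrix.det_fin_two]⟩
  have ha : a * a = -1 := by
    apply Subtype.ext
    rw [Matrix.SpecialLinearGroup.coe_mul, Matrix.SpecialLinearGroup.coe_neg]
    ext i k
    fin_cases i <;> fin_cases k <;> simp [a, Matrix.mul_apply]
  have htr : CfsgLib.SL2.tr a = 0 := by simp [CfsgLib.SL2.tr, a]
  have ha4 : CfsgLib.SL2.tr a ^ 2 ≠ 4 := by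
    rw [htr]; intro e; exact mul_ne_zero h2 h2 (by linear_combination -e)
  obtain ⟨w0, hw0⟩ := isConj_iff.1
    (CfsgLib.SL2.isConj_of_tr_eq ha4 (by rw [tr_neg, htr, neg_zero]) : IsConj a (-a))
  set x := P φ n a a with hx
  have hxne1 : x ≠ 1 := by
    intro e
    rw [hx, ← h.P_one] at e
    rcases h.P_eq e with ⟨e1, -⟩ | ⟨e1, -⟩
    · rw [← e1, one_mul] at ha; exact hn11 ha.symm
    · rw [show a = -1 by rw [e1, neg_neg], neg_mul_neg, one_mul] at ha; exact hn11 ha.symm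
  have hxnej : x ≠ j := by
    intro e
    rw [hx, ← h.jx] at e
    rcases h.P_eq e with ⟨-, e2⟩ | ⟨-, e2⟩
    · rw [← e2, one_mul] at ha; exact hn11 ha.symm
    · rw [show a = -1 by rw [e2, neg_neg], neg_mul_neg, one_mul] at ha; exact hn11 ha.symm
  have hxC : x ∈ C := hle (hPM a a)
  have hxx : x * x = 1 := by
    rw [hx, h.P_mul, ha, h.P_neg_left, neg_neg, h.P_one]
  obtain ⟨x0, hx0M, -, -, hclass⟩ :=
    Cfsg.Agent.S3209.result hF₁ hF₂ L₁ L₂ e₁ e₂ hc j hj hm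
  have hconjC : ∀ y z, y ∈ C → z ∈ C → orderOf y = 2 → orderOf z = 2 → y ≠ j → z ≠ j →
      ∃ c ∈ C, c * y * c⁻¹ = z := by
    intro y z hy hz hy2 hz2 hyj hzj
    rcases hclass y (hinvM y hy (CfsgLib.Involutions.mul_self_eq_one hy2)) hy2 with e | ⟨g, hg, e⟩
    · exact absurd e hyj
    rcases hclass z (hinvM z hz (CfsgLib.Involutions.mul_self_eq_one hz2)) hz2 with e' | ⟨g', hg', e'⟩
    · exact absurd e' hzj
    refine ⟨g' * g⁻¹, hle (mul_mem hg' (inv_mem hg)), ?_⟩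
    rw [← e, ← e']; group
  refine oddComm_of_commuting_eq hj fun g hgc => ?_
  by_contra hne
  have hy2 : orderOf (g * j * g⁻¹) = 2 := (CfsgLib.Involutions.orderOf_conj g j).trans hj
  have hyC : g * j * g⁻¹ ∈ C := Subgroup.mem_centralizer_singleton_iff.2 hgc.eq.symm
  have hx2 : orderOf x = 2 := orderOf_eq_prime (by rw [pow_two]; exact hxx) hxne1
  obtain ⟨c0, -, hc0⟩ := hconjC _ x hyC hxC hy2 hx2 hne hxnej
  set k0 := c0 * g with hk0
  have hk : k0 * j * k0⁻¹ = x := by rw [← hc0, hk0]; group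
  -- `j` and `j x` pulled back by `k0`
  have hjxc : j * x = x * j := (Subgroup.mem_centralizer_singleton_iff.1 hxC).symm
  have hjxQ : j * x = P φ n (-a) a := by
    rw [hx, ← h.jx, h.P_mul, neg_mul, one_mul]
  have hjxne : j * x ≠ 1 := fun e => hxnej (by rw [← inv_eq_of_mul_eq_one_right e, CfsgLib.Involutions.inv_eq_self hj])
  have pull : ∀ t, t * t = 1 → t ≠ 1 → t * x = x * t → t ≠ x →
      k0⁻¹ * t * k0 ∈ C ∧ orderOf (k0⁻¹ * t * k0) = 2 ∧ k0⁻¹ * t * k0 ≠ j := by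
    intro t htt ht1 htx htne
    refine ⟨Subgroup.mem_centralizer_singleton_iff.2 ?_, ?_, ?_⟩
    · have ej : j = k0⁻¹ * x * k0 := by rw [← hk]; group
      rw [ej]
      calc k0⁻¹ * t * k0 * (k0⁻¹ * x * k0) = k0⁻¹ * (t * x) * k0 := by group
        _ = k0⁻¹ * (x * t) * k0 := by rw [htx]
        _ = k0⁻¹ * x * k0 * (k0⁻¹ * t * k0) := by group
    · have := CfsgLib.Involutions.orderOf_conj k0⁻¹ t
      rw [inv_inv] at this
      rw [this]
      exact orderOf_eq_prime (by rw [pow_two]; exact htt) ht1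
    · intro e
      apply htne
      rw [← hk, ← e]; group
  obtain ⟨p1, q1, r1⟩ := pull j hj2 hj1 hjxc (fun e => hxnej e.symm)
  obtain ⟨p2, q2, r2⟩ := pull (j * x)
    (by rw [mul_assoc, ← mul_assoc x j, ← hjxc, mul_assoc j x x, hxx, mul_one, hj2]) hjxne
    (by rw [mul_assoc, ← mul_assoc x j, ← hjxc, mul_assoc])
    (fun e => hj1 (mul_eq_right.1 e))
  obtain ⟨c1, hc1, hc1'⟩ := hconjC _ _ p1 p2 q1 q2 r1 r2
  set k := k0 * c1 * k0⁻¹ with hkdef
  have hkx : k * x = x * k := by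
    have e : c1 * j = j * c1 := Subgroup.mem_centralizer_singleton_iff.1 hc1
    rw [hkdef, ← hk]
    calc k0 * c1 * k0⁻¹ * (k0 * j * k0⁻¹) = k0 * (c1 * j) * k0⁻¹ := by group
      _ = k0 * j * k0⁻¹ * (k0 * c1 * k0⁻¹) := by rw [e]; group
  have hkj : k * j * k⁻¹ = j * x := by
    calc k * j * k⁻¹ = k0 * (c1 * (k0⁻¹ * j * k0) * c1⁻¹) * k0⁻¹ := by rw [hkdef]; group
      _ = j * x := by rw [hc1']; group
  have hlt := h.card_roots_ne hjc a ha w0 hw0
  refine absurd hlt (not_lt.2 ?_)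
  refine Set.ncard_le_ncard_of_injOn (fun d => k * d * k⁻¹) ?_ (fun d _ d' _ e => mul_left_cancel (mul_right_cancel e)) (Set.toFinite _)
  rintro d ⟨-, hdd, hdx⟩
  have e1 : k * d * k⁻¹ * (k * d * k⁻¹) = j * x := by
    rw [← hkj, ← hdd]; group
  refine ⟨hKC _ (Subgroup.mem_centralizer_singleton_iff.2 ?_), e1.trans hjxQ⟩
  -- it commutes with `j x` and with `x`, hence with `j`
  set d' := k * d * k⁻¹ with hd'
  have f1 : d' * (j * x) = j * x * d' := by rw [← e1]; simp only [mul_assoc]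
  have f2 : d' * x = x * d' := by
    rw [hd']
    have ex : k * x * k⁻¹ = x := by rw [hkx, mul_inv_cancel_right]
    nth_rewrite 1 [← ex]
    nth_rewrite 2 [← ex]
    calc k * d * k⁻¹ * (k * x * k⁻¹) = k * (d * x) * k⁻¹ := by group
      _ = k * x * k⁻¹ * (k * d * k⁻¹) := by rw [show d * x = x * d from hdx]; group
  calc d' * j = d' * (j * x) * x := by rw [mul_assoc d', mul_assoc j, hxx, mul_one]
    _ = j * x * (d' * x) := by rw [f1, mul_assoc]
    _ = j * (x * x) * d' := by rw [f2]; group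
    _ = j * d' := by rw [hxx, mul_one]

end CfsgLib.CoreFree
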