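import Cfsg.Agent.Lib.TwoGroups.RankOne
import Cfsg.Agent.Lib.TwoGroups.Basic

/-! Non-abelian 2-groups with a unique involution. -/

set_option autoImplicit false

namespace CfsgLib.CoreFree

open Subgroup

variable {G : Type*} [Group G] [Finite G]

theorem exists_cyclic_index_two (hG : IsPGroup 2 G) (hu : CfsgLib.TwoGroups.UniqueOrderP 2 G)
    (hna : ¬ IsMulCommutative G) : ∃ x : G, Nat.card G = 2 * orderOf x := by
  haveI : Fact (Nat.Prime 2) := ⟨Nat.prime_two⟩
  rcases CfsgLib.TwoGroups.isCyclic_or_quaternion hG hu with h | ⟨-, m, hm, ⟨e⟩⟩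
  · haveI := h
    exact absurd (inferInstance : IsMulCommutative G) hna
  · haveI : NeZero (2 ^ m) := ⟨by positivity⟩
    refine ⟨e.symm (QuaternionGroup.a 1), ?_⟩
    rw [MulEquiv.orderOf_eq, QuaternionGroup.orderOf_a_one, Nat.card_congr e.toEquiv,
      Nat.card_eq_fintype_card, QuaternionGroup.card]
    ring

/-- In such a group an element outside a cyclic subgroup of index two inverts it. -/
theorem inverts_and_sq (hG : IsPGroup 2 G) (hu : CfsgLib.TwoGroups.UniqueOrderP 2 G)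
    (hna : ¬ IsMulCommutative G) {x y : G} (hc : Nat.card G = 2 * orderOf x)
    (hy : y ∉ zpowers x) :
    ∃ n : ℕ, orderOf x = 2 ^ (n + 1) ∧ y * x * y⁻¹ = x⁻¹ ∧ y ^ 2 = x ^ 2 ^ n ∧ y ^ 2 ≠ 1 := by
  haveI : Fact (Nat.Prime 2) := ⟨Nat.prime_two⟩
  obtain ⟨k, hk⟩ := IsPGroup.iff_orderOf.1 hG x
  have hi := CfsgLib.TwoGroups.index_zpowers_eq_two hc
  haveI : (zpowers x).Normal := normal_of_index_eq_two hi
  have hgen := CfsgLib.TwoGroups.exists_eq_zpow_or_zpow_mul hc hy
  rcases k with _ | n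
  · exfalso
    rw [pow_zero] at hk
    refine hna ?_
    haveI : IsCyclic G := isCyclic_of_prime_card (p := 2) (by rw [hc, hk, mul_one])
    infer_instance
  have hnc : ¬ Commute y x := by
    intro hcm
    apply hna
    refine ⟨⟨fun g h => ?_⟩⟩
    have hg : ∀ g : G, Commute g x ∧ Commute g y := by
      intro g
      rcases hgen g with ⟨i, rfl⟩ | ⟨i, rfl⟩
      · exact ⟨(Commute.refl x).zpow_left i, hcm.symm.zpow_left i⟩
      · exact ⟨((Commute.refl x).zpow_left i).mul_left hcm, (hcm.symm.zpow_left i).mul_left (Commute.refl y)⟩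
    rcases hgen h with ⟨i, rfl⟩ | ⟨i, rfl⟩
    · exact (hg g).1.zpow_right i
    · exact ((hg g).1.zpow_right i).mul_right (hg g).2
  obtain ⟨r, hr⟩ := mem_zpowers_iff.1 ((inferInstance : (zpowers x).Normal).conj_mem x (mem_zpowers x) y)
  obtain ⟨e, he⟩ := mem_zpowers_iff.1 (show y ^ 2 ∈ zpowers x by
    rw [pow_two, mul_mem_iff_of_index_two hi])
  obtain ⟨-, h1, h2⟩ := CfsgLib.TwoGroups.inverts_of_unique hu hk hy hnc hr.symm he.symm
  refine ⟨n, hk, h1, h2, ?_⟩
  rw [h2, Ne, ← orderOf_dvd_iff_pow_eq_one, hk, Nat.pow_dvd_pow_iff_le_right (by norm_num)]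
  omega

theorem uniqueOrderP_two_of_existsUnique (h : ∃! x : G, orderOf x = 2) :
    CfsgLib.TwoGroups.UniqueOrderP 2 G :=
  CfsgLib.TwoGroups.uniqueOrderP_iff_unique_involution.2 fun _ _ ha hb => h.unique ha hb

end CfsgLib.CoreFree
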